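import Cfsg.Agent.H697.Alm.Defs
import Cfsg.Agent.H698.CaseS

/-!
# S4790, T11: one component, prime field
-/

set_option autoImplicit false
set_option linter.style.haveILetI false

namespace Cfsg.Agent.H676.S4790

open Cfsg Cfsg.Agent.H717.FieldOf Module
open Cfsg.Agent.H698 Cfsg.Agent.H698.CaseS Cfsg.Agent.H697.Alm
open Cfsg.Agent.SignalizersComponents.Components

universe u v w

section basic

variable {D : Type v} {E : Type u} [Group D] [Finite D] [AddCommGroup E] [Finite E] [DistribMulAction D E]

/-- the nonzero elements lie in `orb D E` orbits -/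
theorem card_le_orb : Nat.card E ≤ orb D E * Nat.card D + 1 := by
  classical
  letI := Fintype.ofFinite E
  letI := Fintype.ofFinite D
  haveI : Finite (MulAction.orbitRel.Quotient D E) := Quotient.finite _
  letI := Fintype.ofFinite (MulAction.orbitRel.Quotient D E)
  let f : E → MulAction.orbitRel.Quotient D E := fun e => Quotient.mk'' e
  have hf : ∀ e e' : E, f e = f e' ↔ e ∈ MulAction.orbit D e' := by
    intro e e'
    rw [← MulAction.orbitRel_apply]
    exact Quotient.eq''
  have h1 : (Finset.univ.erase (0 : E)).card ≤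
      Nat.card D * (Finset.univ.erase (f 0)).card := by
    refine Finset.card_le_mul_card_image_of_maps_to (f := f) ?_ _ ?_
    · intro e he
      rw [Finset.mem_erase] at he ⊢
      refine ⟨fun h => he.1 ?_, Finset.mem_univ _⟩
      obtain ⟨d, hd⟩ := (hf e 0).1 h
      rw [← hd]
      exact smul_zero d
    · intro q _
      by_cases hq : ∃ e, f e = q
      · obtain ⟨e, rfl⟩ := hq
        have h2 : (MulAction.orbit D e).ncard ≤ Nat.card D := by
          rw [← MulAction.index_stabilizer]
          exact Nat.le_of_dvd Nat.card_pos (Subgroup.index_dvd_card _)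
        refine le_trans ?_ h2
        rw [Set.ncard_eq_toFinset_card']
        refine Finset.card_le_card fun y hy => ?_
        rw [Finset.mem_filter] at hy
        rw [Set.mem_toFinset]
        exact (hf y e).1 hy.2
      · rw [Finset.card_eq_zero.2]
        · exact Nat.zero_le _
        · rw [Finset.eq_empty_iff_forall_notMem]
          intro x hx
          exact hq ⟨x, (Finset.mem_filter.1 hx).2⟩
  rw [Finset.card_erase_of_mem (Finset.mem_univ _), Finset.card_erase_of_mem (Finset.mem_univ _),
    Finset.card_univ, Finset.card_univ] at h1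
  unfold orb
  rw [Nat.card_eq_fintype_card (α := E), Nat.card_eq_fintype_card (α := MulAction.orbitRel.Quotient D E),
    mul_comm]
  omega

end basic

section prime

variable {D E : Type u} [Group D] [AddCommGroup E] [DistribMulAction D E] {F : Type u} [Field F]
  [Finite F] [Module F E]

/-- over the prime field everything is linear -/
theorem CF_eq_top {p : ℕ} (hp : p.Prime) (hF : Nat.card F = p) : CF D E F = ⊤ := by
  haveI : Fact p.Prime := ⟨hp⟩
  rw [eq_top_iff]
  intro d _ c e
  obtain ⟨n, hn⟩ : ∃ n : ℕ, (n : F) = c := by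
    letI := Fintype.ofFinite F
    have hF' : Fintype.card F = p := by rw [← Nat.card_eq_fintype_card]; exact hF
    have hc : CharP F p := by
      obtain ⟨r, hr⟩ := CharP.exists F
      obtain ⟨n, hn, hn'⟩ := FiniteField.card F r
      have h1 : r = p := by
        have h2 : r ∣ p := by
          rw [← hF', hn']
          exact dvd_pow_self r n.ne_zero
        exact (Nat.prime_dvd_prime_iff_eq hn hp).1 h2
      rwa [h1] at hr
    have h1 : Function.Injective (fun i : Fin p => ((i : ℕ) : F)) := by
      intro i j h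
      have h2 := (CharP.natCast_eq_natCast (R := F) p).1 h
      exact Fin.ext (Nat.ModEq.eq_of_lt_of_lt h2 i.2 j.2)
    have h2 : Function.Bijective (fun i : Fin p => ((i : ℕ) : F)) := by
      rw [Fintype.bijective_iff_injective_and_card]
      exact ⟨h1, by rw [Fintype.card_fin, hF']⟩
    obtain ⟨i, hi⟩ := h2.2 c
    exact ⟨i, hi⟩
  rw [← hn, Nat.cast_smul_eq_nsmul, Nat.cast_smul_eq_nsmul]
  exact (DistribSMul.toAddMonoidHom E d).map_nsmul n e

end prime

section arith

/-- the arithmetic of the case of a small group -/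
theorem ar_small {r z k x p N : ℕ} (h1 : N ≤ r * z * x) (h2 : x * (p - 1) ≤ N) (hx : 0 < x) (hk : 2 ≤ k)
    (hr : 3 ≤ r) : p - 1 < r * (z + k - 1) := by
  have h3 : (p - 1) * x ≤ (r * z) * x := by
    calc (p - 1) * x = x * (p - 1) := mul_comm _ _
      _ ≤ N := h2
      _ ≤ _ := h1
  have h4 := Nat.le_of_mul_le_mul_right h3 hx
  have h5 : r * (z + k - 1) = r * z + r * (k - 1) := by
    rw [← Nat.mul_add]
    congr 1
    omega
  rw [h5]
  have h6 : 3 * 1 ≤ r * (k - 1) := Nat.mul_le_mul hr (by omega)
  omega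

/-- the arithmetic of the main case: `s = 2 z' - 2`, `z'` least with `N ≤ 2 z' x` -/
theorem ar_main {r z k z' p : ℕ} (hr : 3 ≤ r) (hp : 23 ≤ p) (hz' : 1 ≤ z') (h1 : 2 * z' - 2 < r * z)
    (h2 : 2 * z' - 2 < p - 1) (h3 : p + 3 ≤ 2 * (z' + k)) : p - 1 < r * (z + k - 1) := by
  obtain ⟨s, hs⟩ : ∃ s, s = 2 * z' - 2 := ⟨_, rfl⟩
  obtain ⟨q, hq⟩ : ∃ q, q = p - 1 := ⟨_, rfl⟩
  rw [← hs] at h1 h2
  rw [← hq] at h2 ⊢
  have h4 : q + 2 * z ≤ 2 * (z + k - 1) + s := by omega
  rcases Nat.lt_or_ge s (2 * z) with h | h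
  · have h5 : q + 1 ≤ 2 * (z + k - 1) := by omega
    nlinarith
  · obtain ⟨d, rfl⟩ : ∃ d, s = 2 * z + d := ⟨s - 2 * z, by omega⟩
    obtain ⟨e, rfl⟩ : ∃ e, q = 2 * z + d + 1 + e := ⟨q - (2 * z + d + 1), by omega⟩
    have h5 : 2 * z + 1 + e ≤ 2 * (z + k - 1) := by omega
    have h6 : r * (2 * z + 1 + e) ≤ 2 * (r * (z + k - 1)) := by nlinarith
    by_contra hcon
    push Not at hcon
    -- r z ≥ 2 z + d + 1
    have h7 : r * (2 * z + 1 + e) = 2 * (r * z) + r * (1 + e) := by ring
    nlinarith

end arith

section final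

variable {D E : Type u} [Group D] [Finite D] [AddCommGroup E] [Finite E] [Nontrivial E] [DistribMulAction D E]
  [FaithfulSMul D E] {F : Type u} [Field F] [Finite F] [Module F E]

/-- the matrix representation of a subgroup, when everything is linear -/
noncomputable def lin' (hCF : CF D E F = ⊤) (P : Subgroup D) : P →* (E →ₗ[F] E) where
  toFun g :=
    { toFun := fun e => (g : D) • e
      map_add' := fun a b => smul_add _ a b
      map_smul' := fun k e => by
        have h : (g : D) ∈ CF D E F := by rw [hCF]; exact Subgroup.mem_top _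
        exact h k e }
  map_one' := by
    refine LinearMap.ext fun v => ?_
    exact one_smul D v
  map_mul' := fun g g' => by
    refine LinearMap.ext fun v => ?_
    exact mul_smul (g : D) (g' : D) v

/-- **T11.** One component, prime field. -/
theorem ps_comp {p m : ℕ} (hp : p.Prime) (h23 : 23 ≤ p) (hpE : ∀ e : E, p • e = 0) (hcop : ¬ p ∣ Nat.card D)
    (fr : Fr D E F) (hF : Nat.card F = p) (hm : finrank F E = m) (hm3 : 3 ≤ m)
    (hfine : ∀ (T : Type u) [Group T] [Finite T] [IsSimpleGroup T], ¬ IsMulCommutative T → H698.Fine.{u, u} T)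
    (h3 : 3 ≤ orb D E) (K : Subgroup D) (hK : IsComponent K) (hKn : K.Normal)
    (hR : H698.Rep.{u, u} p m (K ⧸ Subgroup.center K))
    (hc : CF D E F ⊓ Subgroup.centralizer (K : Set D) = AF D E F) :
    p - 1 < orb D E * Nat.card (ConjClasses D) := by
  classical
  have hCF : CF D E F = ⊤ := CF_eq_top hp hF
  rw [hCF, top_inf_eq] at hc
  obtain ⟨A, hAdef⟩ : ∃ A : Subgroup D, A = Subgroup.centralizer (K : Set D) := ⟨_, rfl⟩
  have hAn : A.Normal := by rw [hAdef]; infer_instance
  have hAF : A = AF D E F := hAdef.trans hc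
  have hAz : ∀ a ∈ A, ∀ d : D, a * d = d * a := by
    intro a ha d
    rw [hAF] at ha
    obtain ⟨c, hc'⟩ := ha
    have hd : d ∈ CF D E F := by rw [hCF]; exact Subgroup.mem_top _
    apply FaithfulSMul.eq_of_smul_eq_smul (α := E)
    intro e
    rw [mul_smul, mul_smul, hc', hc', hd c e]
  have hC1 : (Subgroup.centralizer (A : Set D)).index ≤ 1 := by
    have h : Subgroup.centralizer (A : Set D) = ⊤ := by
      rw [eq_top_iff]
      intro d _
      rw [Subgroup.mem_centralizer_iff]
      intro a ha
      exact hAz a ha d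
    rw [h, Subgroup.index_top]
  obtain ⟨z, hz1, hz2⟩ := Count.count A hC1
  rw [one_mul] at hz1
  have hker : (psi K).ker = A := by rw [hAdef]; exact psi_ker K hK.2.1
  let e : (D ⧸ A) ≃* (psi K).range :=
    (QuotientGroup.quotientMulEquivOfEq hker.symm).trans (QuotientGroup.quotientKerEquivRange (psi K))
  have hXq : Nat.card (D ⧸ A) = Nat.card (psi K).range := Nat.card_congr e.toEquiv
  have hXcl : Nat.card (ConjClasses (D ⧸ A)) = Nat.card (ConjClasses (psi K).range) :=
    H697.ClassCount.card_conjClasses_congr e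
  have hDA : Nat.card D = Nat.card (psi K).range * Nat.card A := by
    rw [← hXq]
    exact Subgroup.card_eq_card_quotient_mul_card_subgroup A
  have hsimple : IsSimpleGroup (K ⧸ Subgroup.center K) := hK.2.2
  have hna := not_comm_quot hK.2
  have hpT : ¬ p ∣ Nat.card (K ⧸ Subgroup.center K) := fun h =>
    hcop ((h.trans (Subgroup.card_quotient_dvd_card _)).trans (Subgroup.card_subgroup_dvd_card K))
  have hE : Nat.card E = p ^ m := by
    haveI : Module.Finite F E := Module.Finite.of_finite
    have h4 := Module.natCard_eq_pow_finrank (K := F) (V := E)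
    rw [hm, hF] at h4
    exact h4
  have hcard := card_le_orb (D := D) (E := E)
  rw [hE, hDA] at hcard
  obtain ⟨r, hr⟩ : ∃ r, r = orb D E := ⟨_, rfl⟩
  obtain ⟨x, hx⟩ : ∃ x, x = Nat.card (psi K).range := ⟨_, rfl⟩
  obtain ⟨k, hk⟩ : ∃ k, k = Nat.card (ConjClasses (psi K).range) := ⟨_, rfl⟩
  have hx0 : 0 < x := by rw [hx]; exact Nat.card_pos
  rw [← hr] at h3 hcard ⊢
  rw [← hx] at hcard
  have hNle : p ^ m - 1 ≤ r * z * x := by
    have h4 : r * (x * Nat.card A) ≤ r * z * x := by
      calc r * (x * Nat.card A) ≤ r * (x * z) := Nat.mul_le_mul_left _ (Nat.mul_le_mul_left _ hz1)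
        _ = _ := by ring
    omega
  have hk2 : 2 ≤ k := by
    rw [hk]
    have hnt : Nontrivial (psi K).range := by
      have h4 := conj_range_le K
      by_contra hcon
      rw [not_nontrivial_iff_subsingleton] at hcon
      apply hna
      refine ⟨⟨fun a b => ?_⟩⟩
      have h5 : (MulAut.conj a : MulAut (K ⧸ Subgroup.center K)) = 1 := by
        have h6 : (⟨MulAut.conj a, h4 ⟨a, rfl⟩⟩ : (psi K).range) = ⟨1, one_mem _⟩ := Subsingleton.elim _ _
        exact congrArg Subtype.val h6
      have h7 := congrArg (fun f : MulAut (K ⧸ Subgroup.center K) => f b) h5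
      simp only [MulAut.conj_apply, MulAut.one_apply] at h7
      calc a * b = (a * b * a⁻¹) * a := by group
        _ = b * a := by rw [h7]
    obtain ⟨g, hg⟩ := exists_ne (1 : (psi K).range)
    haveI : Nontrivial (ConjClasses (psi K).range) :=
      ⟨⟨ConjClasses.mk g, ConjClasses.mk 1, fun h => hg (by
        rw [ConjClasses.mk_eq_mk_iff_isConj, isConj_comm, isConj_one_right] at h
        exact h)⟩⟩
    exact Finite.one_lt_card
  rw [hXcl, ← hk] at hz2
  have hgoal : p - 1 < r * (z + k - 1) → p - 1 < r * Nat.card (ConjClasses D) := fun h =>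
    lt_of_lt_of_le h (Nat.mul_le_mul_left _ (by omega))
  apply hgoal
  rcases Nat.lt_or_ge (p ^ m - 1) (x * (p - 1)) with hcase | hcase
  · -- the main case
    have hex : ∃ z' : ℕ, p ^ m - 1 ≤ 2 * z' * x := ⟨r * z, le_trans hNle (Nat.mul_le_mul_right _ (by omega))⟩
    obtain ⟨z', hz', hmin⟩ : ∃ z' : ℕ, p ^ m - 1 ≤ 2 * z' * x ∧ ∀ w < z', 2 * w * x < p ^ m - 1 :=
      ⟨Nat.find hex, Nat.find_spec hex, fun w hw => by
        have := Nat.find_min hex hw
        omega⟩
    have hz'1 : 1 ≤ z' := by
      by_contra hcon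
      have h4 : z' = 0 := by omega
      rw [h4] at hz'
      have h5 : 1 < p ^ m := Nat.one_lt_pow (by omega) hp.one_lt
      omega
    have hlt := hmin (z' - 1) (by omega)
    have h5 : 2 * (z' - 1) * x = (2 * z' - 2) * x := by congr 1; omega
    rw [h5] at hlt
    refine ar_main h3 h23 hz'1 ?_ ?_ ?_
    · exact Nat.lt_of_mul_lt_mul_right (lt_of_lt_of_le hlt hNle)
    · refine Nat.lt_of_mul_lt_mul_right (a := x) (lt_trans hlt ?_)
      rw [mul_comm (p - 1) x]
      exact hcase
    · rw [hk]
      refine hfine (K ⧸ Subgroup.center K) hna p m hp (by omega) hpT hm3 hR (psi K).range (conj_range_le K) z' ?_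
      rw [← hx]
      omega
  · exact ar_small hNle hcase hx0 hk2 h3

end final

end Cfsg.Agent.H676.S4790
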